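import Cfsg.Agent.H936.Odm.Co3Data
import Cfsg.Agent.H799.RO.CoNine
import Cfsg.Agent.H970.Sep.Co3Seven
import Cfsg.Agent.H217.Odm.Eng2
import Cfsg.Agent.H217.Odm.Real

/-!
# TEAM ODDM (S4785): the row of `Co₃` (helper936)

`r = 7`, `|C(x)| = 42`; order 11, `|C(x)| = 22`; real elements of order 9; two real elements of order 3 and two real
elements of order 5 generating non-conjugate subgroups (fixed points on `Λ / 2Λ`).
-/

set_option autoImplicit false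
set_option maxRecDepth 100000

namespace Cfsg.Agent.H936.OdmRowCo3

open Subgroup Cfsg Cfsg.Agent.SporadicA
open Cfsg.Agent.LThreeMB (fr)
open Cfsg.Agent.H573.Spor.Co0 (toCo1 fr_eq_of_conj)
open Cfsg.Agent.H453.OddM Cfsg.Agent.H217.Odm
open Cfsg.Spor (Co1)

universe u

/-- two real elements of order `p` generating non-conjugate subgroups -/
def TwoReal (T : Type*) [Group T] (p : ℕ) : Prop :=
  ∃ x y : T, orderOf x = p ∧ orderOf y = p ∧ IsReal x ∧ IsReal y ∧ ∀ g : T, g * y * g⁻¹ ∉ zpowers x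

theorem TwoReal.congr {T S : Type*} [Group T] [Group S] {p : ℕ} (e : S ≃* T) (h : TwoReal S p) : TwoReal T p := by
  obtain ⟨x, y, hx, hy, hxr, hyr, hno⟩ := h
  refine ⟨e x, e y, by rw [MulEquiv.orderOf_eq, hx], by rw [MulEquiv.orderOf_eq, hy], hxr.map e.toMonoidHom,
    hyr.map e.toMonoidHom, fun g hg => hno (e.symm g) ?_⟩
  obtain ⟨k, hk⟩ := mem_zpowers_iff.1 hg
  refine mem_zpowers_iff.2 ⟨k, e.injective ?_⟩
  rw [map_zpow, hk, map_mul, map_mul, map_inv, e.apply_symm_apply]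

theorem TwoReal.realP {T : Type*} [Group T] {p : ℕ} (h : TwoReal T p) : RealP T p := by
  obtain ⟨x, -, hx, -, hr, -⟩ := h
  exact ⟨x, hx, hr⟩

theorem co3_le : Spor.Co3 ≤ Co0 := fun _ h => h.1

/-- the criterion -/
theorem twoReal_of {p : ℕ} (hp : p.Prime) {s t x s' t' x' : Co0} (hs : s ^ 2 = 1) (ht : t ^ 2 = 1) (hx : x = s * t)
    (hs' : s' ^ 2 = 1) (ht' : t' ^ 2 = 1) (hx' : x' = s' * t') (xp : x ^ p = 1) (xn : x ≠ 1) (xp' : x' ^ p = 1)
    (xn' : x' ≠ 1) (ms : s.1 ∈ Spor.Co3) (mt : t.1 ∈ Spor.Co3) (ms' : s'.1 ∈ Spor.Co3) (mt' : t'.1 ∈ Spor.Co3)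
    (hfr : fr (QuotientGroup.mk x : Co1) ≠ fr (QuotientGroup.mk x' : Co1)) : TwoReal Spor.Co3 p := by
  have hp' : Fact p.Prime := ⟨hp⟩
  have ca : ∀ {g : Co0} {n : ℕ} (_ : g ^ n = 1) (hg : g.1 ∈ Spor.Co3), (⟨g.1, hg⟩ : Spor.Co3) ^ n = 1 := fun {g n} h hg =>
    Subtype.ext (show g.1 ^ n = 1 from congrArg Subtype.val h)
  have cn : ∀ {g : Co0} (_ : g ≠ 1) (hg : g.1 ∈ Spor.Co3), (⟨g.1, hg⟩ : Spor.Co3) ≠ 1 := fun {g} h hg h' =>
    h (Subtype.ext (show g.1 = 1 from congrArg Subtype.val h'))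
  have mx : x.1 ∈ Spor.Co3 := by rw [hx]; exact mul_mem ms mt
  have mx' : x'.1 ∈ Spor.Co3 := by rw [hx']; exact mul_mem ms' mt'
  have ex : (⟨x.1, mx⟩ : Spor.Co3) = ⟨s.1, ms⟩ * ⟨t.1, mt⟩ := Subtype.ext (by
    show x.1 = s.1 * t.1
    rw [hx]; rfl)
  have ex' : (⟨x'.1, mx'⟩ : Spor.Co3) = ⟨s'.1, ms'⟩ * ⟨t'.1, mt'⟩ := Subtype.ext (by
    show x'.1 = s'.1 * t'.1
    rw [hx']; rfl)
  have ox : orderOf (⟨x.1, mx⟩ : Spor.Co3) = p := orderOf_eq_prime (ca xp mx) (cn xn mx)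
  have ox' : orderOf (⟨x'.1, mx'⟩ : Spor.Co3) = p := orderOf_eq_prime (ca xp' mx') (cn xn' mx')
  refine ⟨⟨x.1, mx⟩, ⟨x'.1, mx'⟩, ox, ox', ?_, ?_, fun g hg => ?_⟩
  · rw [ex]; exact IsReal.of_mul (ca hs ms) (ca ht mt)
  · rw [ex']; exact IsReal.of_mul (ca hs' ms') (ca ht' mt')
  · obtain ⟨k, hk⟩ := mem_zpowers_iff.1 hg
    have hok : orderOf ((⟨x.1, mx⟩ : Spor.Co3) ^ k) = p := by
      rw [hk, ← ox']
      exact orderOf_injective (MulAut.conj g).toMonoidHom (MulAut.conj g).injective (⟨x'.1, mx'⟩ : Spor.Co3)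
    have hz : zpowers ((⟨x.1, mx⟩ : Spor.Co3) ^ k) = zpowers (⟨x.1, mx⟩ : Spor.Co3) := by
      have hfin : Finite (zpowers (⟨x.1, mx⟩ : Spor.Co3)) := Nat.finite_of_card_ne_zero (by
        rw [Nat.card_zpowers, ox]; exact hp.ne_zero)
      apply Subgroup.eq_of_le_of_card_ge
      · rw [zpowers_le]; exact zpow_mem (mem_zpowers _) k
      · rw [Nat.card_zpowers, Nat.card_zpowers, hok, ox]
    have hm : (⟨x.1, mx⟩ : Spor.Co3) ∈ zpowers ((⟨x.1, mx⟩ : Spor.Co3) ^ k) := by rw [hz]; exact mem_zpowers _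
    obtain ⟨m, hm⟩ := mem_zpowers_iff.1 hm
    -- a natural exponent
    obtain ⟨k', hk'⟩ : ∃ k' : ℕ, (⟨x.1, mx⟩ : Spor.Co3) ^ k' = (⟨x.1, mx⟩ : Spor.Co3) ^ k := by
      have h1 : (⟨x.1, mx⟩ : Spor.Co3) ^ k ∈ zpowers (⟨x.1, mx⟩ : Spor.Co3) := zpow_mem (mem_zpowers _) k
      have hfo : IsOfFinOrder (⟨x.1, mx⟩ : Spor.Co3) := by
        rw [← orderOf_pos_iff, ox]; exact hp.pos
      exact (Submonoid.mem_powers_iff _ _).1 ((hfo.mem_powers_iff_mem_zpowers).2 h1)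
    apply hfr
    symm
    have e1 : toCo1 Spor.Co3 co3_le ⟨x.1, mx⟩ = (QuotientGroup.mk x : Co1) := rfl
    have e2 : toCo1 Spor.Co3 co3_le ⟨x'.1, mx'⟩ = (QuotientGroup.mk x' : Co1) := rfl
    rw [← e1, ← e2]
    refine fr_eq_of_conj (u := toCo1 Spor.Co3 co3_le g) (k := k') (m := m) ?_ ?_
    · rw [← map_inv, ← map_mul, ← map_mul, ← hk, ← hk', map_pow]
    · rw [← map_pow, ← map_zpow, hk', hm]

open Cfsg.Agent.H936.Odm.Co3Data in
theorem twoReal_three : TwoReal Spor.Co3 3 :=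
  twoReal_of (by norm_num) sq_SA sq_TA x_eqA sq_SB sq_TB x_eqB x_powA x_neA x_powB x_neB memSA memTA memSB memTB
    (by rw [frA, frB]; norm_num)

open Cfsg.Agent.H936.Odm.Co3Data in
theorem twoReal_five : TwoReal Spor.Co3 5 :=
  twoReal_of (by norm_num) sq_SC sq_TC x_eqC sq_SD sq_TD x_eqD x_powC x_neC x_powD x_neD memSC memTC memSD memTD
    (by rw [frC, frD]; norm_num)

open Cfsg.Agent.H799.RO.CoNine in
theorem realP_nine : RealP Spor.Co3 9 := by
  have hA : (⟨gA.1, memA⟩ : Spor.Co3) ^ 2 = 1 := Subtype.ext (show gA.1 ^ 2 = 1 from congrArg Subtype.val a_sq)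
  have h1 : (⟨gA.1, memA⟩ : Spor.Co3) * ⟨gX.1, memX⟩ * (⟨gA.1, memA⟩ * ⟨gX.1, memX⟩) = 1 :=
    Subtype.ext (show gA.1 * gX.1 * (gA.1 * gX.1) = 1 from congrArg Subtype.val axax)
  have h9 : (⟨gX.1, memX⟩ : Spor.Co3) ^ 9 = 1 := Subtype.ext (show gX.1 ^ 9 = 1 from congrArg Subtype.val x_pow)
  have h3 : (⟨gX.1, memX⟩ : Spor.Co3) ^ 3 ≠ 1 := fun h => x_ne (Subtype.ext (show gX.1 ^ 3 = 1 from congrArg Subtype.val h))
  refine ⟨⟨gX.1, memX⟩, ?_, ⟨gA.1, memA⟩, ?_⟩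
  · have h3' : Fact (Nat.Prime 3) := ⟨by norm_num⟩
    exact orderOf_eq_prime_pow (p := 3) (n := 1) (by rw [pow_one]; exact h3) h9
  · have hi : (⟨gA.1, memA⟩ : Spor.Co3)⁻¹ = ⟨gA.1, memA⟩ :=
      (eq_inv_of_mul_eq_one_left (by rwa [← pow_two])).symm
    rw [hi]
    exact eq_inv_of_mul_eq_one_left (by rw [mul_assoc]; exact h1)

theorem cent_zpowers {G : Type*} [Group G] (x : G) :
    centralizer ((zpowers x : Subgroup G) : Set G) = centralizer ({x} : Set G) := by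
  rw [zpowers_eq_closure, centralizer_closure]

/-- **The row of `Co3`.** -/
theorem row (tab : Cfsg.Agent.OrdDiv.OrderTable.{u}) (known : Cfsg.Agent.H257.El.Known.{u}) {T : Type u} [Group T]
    (h : Cfsg.Spor.IsoCo3 T) : Cfsg.Agent.H453.OddM.Row T := by
  have hc : Nat.card T = 495766656000 := Cfsg.Agent.H555.TwoSp.card_co3 h
  have hfin : Finite T := Nat.finite_of_card_ne_zero (by rw [hc]; norm_num)
  have c7 : ∀ x : T, orderOf x = 7 → Nat.card (centralizer ({x} : Set T)) = 7 * 6 := by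
    intro x hx
    have h1 := (Cfsg.Agent.H970.Sep.Co3.cn7 h (zpowers x) (by rw [Nat.card_zpowers, hx])).1
    rwa [cent_zpowers] at h1
  have c11 : ∀ x : T, orderOf x = 11 → Nat.card (centralizer ({x} : Set T)) = 11 * 2 := by
    intro x hx
    have h1 := Cfsg.Agent.H555.TwoSp.c11 h (zpowers x) (by rw [Nat.card_zpowers, hx])
    rwa [cent_zpowers] at h1
  have n7 : ∀ x : T, orderOf x = 7 → Nat.card (normalizer ((zpowers x : Subgroup T) : Set T)) = 7 * 36 ∧ IsReal x := by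
    intro x hx
    have h1 := norm_of_cent (r := 7) (n := 70823808000) (c := 6) (e := 6) (by norm_num) (by rw [hc]) (by norm_num) hx
      (c7 x hx) (by norm_num) (by norm_num)
    exact ⟨h1.1, h1.2 (by decide)⟩
  have n11 : ∀ x : T, orderOf x = 11 → Nat.card (normalizer ((zpowers x : Subgroup T) : Set T)) = 11 * 10 := by
    intro x hx
    exact (norm_of_cent (r := 11) (n := 45069696000) (c := 2) (e := 5) (by norm_num) (by rw [hc]) (by norm_num) hx
      (c11 x hx) (by norm_num) (by norm_num)).1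
  have r7 : RealP T 7 := by
    have : Fact (Nat.Prime 7) := ⟨by norm_num⟩
    obtain ⟨x, hx⟩ := exists_prime_orderOf_dvd_card' (G := T) 7 (by rw [hc]; norm_num)
    exact ⟨x, hx, (n7 x hx).2⟩
  have hno : ∀ z : T, orderOf z ≠ 7 * 5 := by
    refine noOrd_of_card_cent (by norm_num) (by norm_num) fun x hx => ?_
    rw [c7 x hx]; norm_num
  obtain ⟨e⟩ := h
  have t3 : TwoReal T 3 := twoReal_three.congr e.symm
  have t5 : TwoReal T 5 := twoReal_five.congr e.symm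
  have h9 : RealP T (3 ^ 2) := realP_congr realP_nine e.symm
  refine row_of_left (n := 495766656000) (l := [(2, 10), (3, 7), (5, 3), (7, 1), (11, 1), (23, 1)]) (r := 7) (ss := [5])
    (aux := [(7, 36, true), (11, 10, false)]) (dv := [25, 27]) tab known hc (by norm_num) (fun R hR => hR.cov.dvd r7)
    ?_ ?_ ?_ (by decide +kernel) (by decide +kernel)
  · intro s hs
    obtain rfl : s = 5 := by simpa using hs
    exact ⟨by norm_num, fun R hR => hR.cov.dvd t5.realP, hno⟩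
  · intro R hR x hx
    simp only [List.mem_cons, List.not_mem_nil, or_false] at hx
    rcases hx with rfl | rfl
    · exact Pt.of_real hR (by norm_num) (by norm_num) r7 (by norm_num) (fun x hx => (n7 x hx).1) true
    · exact Pt.of_norm (by norm_num) (by norm_num) (by norm_num) n11
  · intro R hR d hd
    simp only [List.mem_cons, List.not_mem_nil, or_false] at hd
    rcases hd with rfl | rfl
    · obtain ⟨x, y, hx, hy, hxr, hyr, hxy⟩ := t5
      exact sq_dvd_of_two hR (by norm_num) hx hy hxr hyr hxy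
    · obtain ⟨x, y, hx, hy, hxr, hyr, hxy⟩ := t3
      exact cube_dvd_of_two hR (by norm_num) h9 hx hy hxr hyr hxy

end Cfsg.Agent.H936.OdmRowCo3
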