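import Mathlib
import Cfsg.Agent.H936.PSNonreg

/-!
# The compound diagonal case
-/

set_option autoImplicit false

open Equiv

namespace Cfsg.Agent.H936

variable {Ω : Type*} [Fintype Ω] [DecidableEq Ω]

/-- Invariance of the relation `c i = c j` under elements fixing `a`. -/
theorem diag_rel_one {N : Subgroup (Perm Ω)} (a : Ω)
    {ι T : Type*} [Finite ι] [Group T] [IsSimpleGroup T] (hT : ¬ IsMulCommutative T) (e : N ≃* (ι → T))
    {c : ι → ι} (hst : ∀ n : N, (n : Perm Ω) a = a ↔ ∀ i j, c i = c j → e n i = e n j)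
    (v : ↥(Subgroup.normalizer (N : Set (Perm Ω)))) (hva : (v : Perm Ω) a = a) {i j : ι} (hij : c i = c j) :
    c (fperm hT e v i) = c (fperm hT e v j) := by
  classical
  by_contra hcon
  obtain ⟨t, ht⟩ := exists_ne (1 : T)
  set n : N := e.symm (fun l => if c l = c (fperm hT e v i) then t else 1) with hn
  have hen : e n = fun l => if c l = c (fperm hT e v i) then t else 1 := e.apply_symm_apply _
  have hna : (n : Perm Ω) a = a := by
    rw [hst, hen]
    intro k l hkl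
    simp only [hkl]
  have hc : (v : Perm Ω)⁻¹ * n * (v : Perm Ω) ∈ N := by
    rw [Subgroup.mem_normalizer_iff.1 v.2]
    have : (v : Perm Ω) * ((v : Perm Ω)⁻¹ * n * (v : Perm Ω)) * (v : Perm Ω)⁻¹ = n := by group
    rw [this]
    exact n.2
  have hcv : (v : Perm Ω) * ((⟨_, hc⟩ : N) : Perm Ω) * (v : Perm Ω)⁻¹ = n := by
    change (v : Perm Ω) * ((v : Perm Ω)⁻¹ * n * (v : Perm Ω)) * (v : Perm Ω)⁻¹ = n
    group
  have h1 := fperm_one_iff hT e v ⟨_, hc⟩ n hcv i
  have h2 := fperm_one_iff hT e v ⟨_, hc⟩ n hcv j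
  have h3 : (((⟨_, hc⟩ : N) : Perm Ω)) a = a := by
    change ((v : Perm Ω)⁻¹ * n * (v : Perm Ω)) a = a
    rw [Perm.mul_apply, Perm.mul_apply, hva, hna, Perm.inv_eq_iff_eq, hva]
  rw [hst] at h3
  rw [h3 i j hij, ← h2, hen] at h1
  simp only [if_true] at h1
  rw [if_neg (Ne.symm hcon)] at h1
  exact ht (h1.2 rfl)

theorem diag_rel {N : Subgroup (Perm Ω)} (htr : MulAction.IsPretransitive N Ω) (a : Ω)
    {ι T : Type*} [Finite ι] [Group T] [IsSimpleGroup T] (hT : ¬ IsMulCommutative T) (e : N ≃* (ι → T))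
    {c : ι → ι} (hst : ∀ n : N, (n : Perm Ω) a = a ↔ ∀ i j, c i = c j → e n i = e n j)
    (v : ↥(Subgroup.normalizer (N : Set (Perm Ω)))) {i j : ι} :
    c i = c j ↔ c (fperm hT e v i) = c (fperm hT e v j) := by
  have key : ∀ (v : ↥(Subgroup.normalizer (N : Set (Perm Ω)))) (i j : ι), c i = c j →
      c (fperm hT e v i) = c (fperm hT e v j) := by
    intro v i j hij
    obtain ⟨n, hn⟩ := MulAction.exists_smul_eq N a ((v : Perm Ω) a)
    have hn' : (n : Perm Ω) a = (v : Perm Ω) a := hn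
    let n' : ↥(Subgroup.normalizer (N : Set (Perm Ω))) := ⟨n, Subgroup.le_normalizer n.2⟩
    have h1 := diag_rel_one a hT e hst (n'⁻¹ * v) (by
      change (n : Perm Ω)⁻¹ ((v : Perm Ω) a) = a
      rw [Perm.inv_eq_iff_eq, hn']) hij
    rwa [map_mul, map_inv, fperm_mem, inv_one, one_mul] at h1
  refine ⟨key v i j, fun h => ?_⟩
  have h1 := key v⁻¹ _ _ h
  rw [map_inv] at h1
  have h2 : ∀ i, (fperm hT e v)⁻¹ (fperm hT e v i) = i := fun i => (fperm hT e v).symm_apply_apply i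
  rwa [h2, h2] at h1

/-- **The compound diagonal case.** -/
theorem good_of_compound (h4 : 4 ≤ Nat.card Ω) {N V : Subgroup (Perm Ω)} (htr : MulAction.IsPretransitive N Ω)
    (a : Ω) (hV : V ≤ Subgroup.normalizer (N : Set (Perm Ω))) {m : ℕ} {T : Type*} [Group T] [Finite T] [IsSimpleGroup T]
    (hT : ¬ IsMulCommutative T) (e : N ≃* (Fin m → T)) {c : Fin m → Fin m}
    (hst : ∀ n : N, (n : Perm Ω) a = a ↔ ∀ i j, c i = c j → e n i = e n j) {k : ℕ} (hk : 2 ≤ k)
    (hc : ∀ j : Fin m, Nat.card {i : Fin m // c i = j} = k ∨ Nat.card {i : Fin m // c i = j} = 0)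
    {i₁ i₂ : Fin m} (hne : c i₁ ≠ c i₂) : Good V := by
  classical
  let J := {j : Fin m // ∃ i, c i = j}
  let cc : Fin m → J := fun i => ⟨c i, i, rfl⟩
  have hcard : ∀ j : J, Nonempty (Fin k ≃ {i : Fin m // cc i = j}) := by
    intro j
    have h1 : Nat.card {i : Fin m // cc i = j} = k := by
      have h2 : Nat.card {i : Fin m // cc i = j} = Nat.card {i : Fin m // c i = j} :=
        Nat.card_congr (Equiv.subtypeEquivRight fun i => Subtype.ext_iff)
      rw [h2]
      refine (hc j).resolve_right ?_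
      have : Nonempty {i : Fin m // c i = j} := by
        obtain ⟨j, i, hi⟩ := j
        exact ⟨⟨i, hi⟩⟩
      exact Nat.card_pos.ne'
    exact (Finite.card_eq.1 (by rw [h1, Nat.card_fin]))
  have b : ∀ j : J, Fin k ≃ {i : Fin m // cc i = j} := fun j => (hcard j).some
  -- the diagonal
  let D : Subgroup (Fin k → T) :=
    { carrier := {x | ∀ p q, x p = x q}
      one_mem' := fun _ _ => rfl
      mul_mem' := fun {x y} hx hy p q => by rw [Pi.mul_apply, Pi.mul_apply, hx p q, hy p q]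
      inv_mem' := fun {x} hx p q => by rw [Pi.inv_apply, Pi.inv_apply, hx p q] }
  have hD : ∀ x, x ∈ D ↔ ∀ p q, x p = x q := fun _ => Iff.rfl
  let Δ := (Fin k → T) ⧸ D
  let ψ : N → J → Δ := fun n j => QuotientGroup.mk fun p => e n (b j p : Fin m)
  have hψ : ∀ n n' j, ψ n j = ψ n' j ↔ ∀ i i' : Fin m, cc i = j → cc i' = j → (e n i)⁻¹ * e n' i = (e n i')⁻¹ * e n' i' := by
    intro n n' j
    change QuotientGroup.mk _ = QuotientGroup.mk _ ↔ _
    rw [QuotientGroup.eq, hD]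
    constructor
    · intro h i i' hi hi'
      have h1 := h ((b j).symm ⟨i, hi⟩) ((b j).symm ⟨i', hi'⟩)
      simp only [Pi.mul_apply, Pi.inv_apply, Equiv.apply_symm_apply] at h1
      exact h1
    · intro h p q
      exact h _ _ (b j p).2 (b j q).2
  have hψa : ∀ n n', ψ n = ψ n' ↔ (n : Perm Ω) a = (n' : Perm Ω) a := by
    intro n n'
    have h1 := hst (n⁻¹ * n')
    rw [Subgroup.coe_mul, Subgroup.coe_inv, Perm.mul_apply, Perm.inv_eq_iff_eq] at h1
    rw [eq_comm (a := (n : Perm Ω) a), h1, funext_iff]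
    constructor
    · intro h i j hij
      have h2 := (hψ n n' (cc i)).1 (h _) i j rfl (Subtype.ext hij.symm)
      rw [map_mul, map_inv]
      exact h2
    · intro h j
      rw [hψ]
      intro i i' hi hi'
      have h2 := h i i' (congrArg Subtype.val (hi.trans hi'.symm))
      rw [map_mul, map_inv] at h2
      exact h2
  have hψsurj : Function.Surjective ψ := by
    intro y
    have hz : ∀ j : J, ∃ x : Fin k → T, (QuotientGroup.mk x : Δ) = y j := fun j =>
      QuotientGroup.mk_surjective (y j)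
    choose z hz using hz
    refine ⟨e.symm fun i => z (cc i) ((b (cc i)).symm ⟨i, rfl⟩), ?_⟩
    funext j
    rw [← hz j]
    change QuotientGroup.mk _ = QuotientGroup.mk _
    congr 1
    funext p
    rw [e.apply_symm_apply]
    have h1 : ∀ (j : J) (i : {i : Fin m // cc i = j}), z (cc i) ((b (cc i)).symm ⟨i, rfl⟩) = z j ((b j).symm i) := by
      rintro j ⟨i, rfl⟩
      rfl
    rw [h1 j (b j p), Equiv.symm_apply_apply]
  have hex : ∀ x : Ω, ∃ n : N, (n : Perm Ω) a = x := fun x => MulAction.exists_smul_eq N a x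
  choose f hf using hex
  have hb : Function.Bijective fun x => ψ (f x) := by
    constructor
    · intro x y hxy
      have := (hψa _ _).1 hxy
      rwa [hf, hf] at this
    · intro y
      obtain ⟨n, rfl⟩ := hψsurj y
      exact ⟨(n : Perm Ω) a, (hψa _ _).2 (hf _)⟩
  let φ : Ω ≃ (J → Δ) := Equiv.ofBijective _ hb
  have hφ : ∀ n : N, φ ((n : Perm Ω) a) = ψ n := fun n => (hψa _ _).2 (hf _)
  -- the relations
  have hA : ∀ (j : J) (x y : Ω), φ x j = φ y j ↔ ∃ n : N, (n : Perm Ω) x = y ∧ ∀ i, cc i = j → e n i = 1 := by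
    intro j x y
    obtain ⟨n, rfl⟩ : ∃ n : N, (n : Perm Ω) a = x := ⟨f x, hf x⟩
    obtain ⟨n', rfl⟩ : ∃ n : N, (n : Perm Ω) a = y := ⟨f y, hf y⟩
    rw [hφ, hφ, hψ]
    constructor
    · intro h
      obtain ⟨i₀, hi₀⟩ : ∃ i₀, cc i₀ = j := by
        obtain ⟨j, i, hi⟩ := j
        exact ⟨i, Subtype.ext hi⟩
      set δ : N := e.symm fun _ => (e n i₀)⁻¹ * e n' i₀ with hδ
      have heδ : e δ = fun _ => (e n i₀)⁻¹ * e n' i₀ := e.apply_symm_apply _
      have hδa : (δ : Perm Ω) a = a := by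
        rw [hst, heδ]
        exact fun _ _ _ => rfl
      refine ⟨n' * δ⁻¹ * n⁻¹, ?_, ?_⟩
      · rw [Subgroup.coe_mul, Subgroup.coe_mul, Subgroup.coe_inv, Subgroup.coe_inv, Perm.mul_apply, Perm.mul_apply]
        have h1 : (n : Perm Ω)⁻¹ ((n : Perm Ω) a) = a := by rw [Perm.inv_eq_iff_eq]
        have h2 : (δ : Perm Ω)⁻¹ a = a := by rw [Perm.inv_eq_iff_eq, hδa]
        rw [h1, h2]
      · intro i hi
        rw [map_mul, map_mul, map_inv, map_inv, Pi.mul_apply, Pi.mul_apply, Pi.inv_apply, Pi.inv_apply, heδ]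
        simp only
        rw [h i₀ i hi₀ hi]
        group
    · rintro ⟨u, hu, hu1⟩ i i' hi hi'
      have h1 := hst (n'⁻¹ * u * n)
      rw [Subgroup.coe_mul, Subgroup.coe_mul, Subgroup.coe_inv, Perm.mul_apply, Perm.mul_apply, hu,
        Perm.inv_eq_iff_eq] at h1
      have h2 := h1.1 rfl i i' (congrArg Subtype.val (hi.trans hi'.symm))
      rw [map_mul, map_mul, map_inv, Pi.mul_apply, Pi.mul_apply, Pi.mul_apply, Pi.mul_apply, hu1 i hi, hu1 i' hi',
        Pi.inv_apply, Pi.inv_apply, mul_one, mul_one] at h2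
      have h3 := congrArg (fun x => x⁻¹) h2
      simpa using h3
  have : Nontrivial J := ⟨⟨cc i₁, cc i₂, fun h => hne (congrArg Subtype.val h)⟩⟩
  have : Nontrivial Δ := by
    obtain ⟨t, ht⟩ := exists_ne (1 : T)
    refine ⟨⟨QuotientGroup.mk 1, QuotientGroup.mk (Pi.mulSingle ⟨0, by omega⟩ t), fun h => ?_⟩⟩
    rw [QuotientGroup.eq, inv_one, one_mul, hD] at h
    have h1 := h ⟨0, by omega⟩ ⟨1, by omega⟩
    rw [Pi.mulSingle_eq_same, Pi.mulSingle_eq_of_ne (by simp)] at h1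
    exact ht h1
  refine good_of_cart h4 φ ?_
  intro v hv j
  obtain ⟨i₀, hi₀⟩ : ∃ i₀, cc i₀ = j := by
    obtain ⟨j, i, hi⟩ := j
    exact ⟨i, Subtype.ext hi⟩
  let v' : ↥(Subgroup.normalizer (N : Set (Perm Ω))) := ⟨v, hV hv⟩
  refine ⟨cc (fperm hT e v' i₀), fun x y => ?_⟩
  rw [hA, hA]
  have hcc : ∀ i, cc i = j ↔ cc (fperm hT e v' i) = cc (fperm hT e v' i₀) := by
    intro i
    rw [← hi₀]
    have h1 := diag_rel htr a hT e hst v' (i := i) (j := i₀)
    rw [Subtype.ext_iff, Subtype.ext_iff]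
    exact h1
  constructor
  · rintro ⟨n, hn, hn1⟩
    have hc : v * n * v⁻¹ ∈ N := (Subgroup.mem_normalizer_iff.1 (hV hv) n).1 n.2
    refine ⟨⟨_, hc⟩, ?_, ?_⟩
    · change v ((n : Perm Ω) (v⁻¹ (v x))) = v y
      have h1 : v⁻¹ (v x) = x := by rw [Perm.inv_eq_iff_eq]
      rw [h1, hn]
    · intro i hi
      obtain ⟨i', rfl⟩ := (fperm hT e v').surjective i
      rw [fperm_one_iff hT e v' n ⟨_, hc⟩ rfl]
      exact hn1 i' ((hcc i').2 hi)
  · rintro ⟨n, hn, hn1⟩
    have hvc : v * (v⁻¹ * n * v) * v⁻¹ = n := by group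
    have hc : v⁻¹ * n * v ∈ N := by
      rw [Subgroup.mem_normalizer_iff.1 (hV hv), hvc]
      exact n.2
    refine ⟨⟨_, hc⟩, ?_, ?_⟩
    · change v⁻¹ ((n : Perm Ω) (v x)) = y
      rw [hn, Perm.inv_eq_iff_eq]
    · intro i hi
      rw [← fperm_one_iff hT e v' ⟨_, hc⟩ n hvc]
      exact hn1 _ ((hcc i).1 hi)

end Cfsg.Agent.H936
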