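import Mathlib
import Cfsg.Agent.H936.AutPow
import Cfsg.Agent.S0248
import Cfsg.Agent.PLocal.SL2Perfect
import Cfsg.Agent.Lib.ElemAbGL

/-!
# The derived series of `GL(d, p)`
-/

set_option autoImplicit false

open Matrix

namespace Cfsg.Agent.H936

theorem ps_of_card {G : Type*} [Group G] [Finite G] {k : ℕ} (h : Nat.card G < 2 ^ (k + 1)) : PS k G := by
  by_contra hcon
  have h1 : ∀ i ≤ k, derivedSeries G (i + 1) ≠ derivedSeries G i := by
    intro i hi h2
    exact hcon (PS.mono (show PS i G from h2) hi)
  have h2 : ∀ j ≤ k + 1, 2 ^ j * Nat.card (derivedSeries G j) ≤ Nat.card G := by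
    intro j
    induction j with
    | zero =>
      intro _
      rw [derivedSeries_zero, Subgroup.card_top]
      simp
    | succ j ih =>
      intro hj
      have h3 := ih (by omega)
      have h4 : derivedSeries G (j + 1) ≤ derivedSeries G j := derivedSeries_antitone G (Nat.le_succ _)
      obtain ⟨c, hc⟩ := Subgroup.card_dvd_of_le h4
      have hpos : 0 < Nat.card (derivedSeries G j) := Nat.card_pos
      have hc2 : 2 ≤ c := by
        by_contra hlt
        have : c = 0 ∨ c = 1 := by omega
        rcases this with rfl | rfl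
        · omega
        · apply h1 j (by omega)
          exact Subgroup.eq_of_le_of_card_ge h4 (by rw [hc]; simp)
      calc 2 ^ (j + 1) * Nat.card (derivedSeries G (j + 1)) = 2 ^ j * (Nat.card (derivedSeries G (j + 1)) * 2) := by ring
        _ ≤ 2 ^ j * (Nat.card (derivedSeries G (j + 1)) * c) := by gcongr
        _ ≤ _ := by rw [← hc]; exact h3
  have h3 := h2 (k + 1) le_rfl
  have h4 : 1 ≤ Nat.card (derivedSeries G (k + 1)) := Nat.card_pos
  have h5 : 2 ^ (k + 1) * 1 ≤ 2 ^ (k + 1) * Nat.card (derivedSeries G (k + 1)) := by gcongr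
  omega

theorem ps_gl_of_perfect {ι F : Type*} [Fintype ι] [DecidableEq ι] [Field F]
    (h : commutator (SpecialLinearGroup ι F) = ⊤) : PS 1 (GL ι F) := by
  refine PS.of_hom (A := SpecialLinearGroup ι F) SpecialLinearGroup.toGL ?_ ?_
  · unfold PS
    rw [derivedSeries_one, derivedSeries_zero]
    exact h
  · rw [derivedSeries_one]
    have h1 : commutator (GL ι F) ≤ (GeneralLinearGroup.det (n := ι) (R := F)).ker := 
      Abelianization.commutator_subset_ker _
    intro g hg
    have h2 := h1 hg
    rw [MonoidHom.mem_ker] at h2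
    have h3 : (g : Matrix ι ι F).det = 1 := congrArg Units.val h2
    exact ⟨⟨g, h3⟩, Units.ext rfl⟩

theorem ps_gl (d p : ℕ) [hp : Fact p.Prime] : PS 5 (GL (Fin d) (ZMod p)) := by
  by_cases h3 : 3 ≤ d
  · exact (ps_gl_of_perfect (Cfsg.Agent.S0248.result d h3)).mono (by norm_num)
  by_cases h1 : d ≤ 1
  · have h2 : ∀ a b : GL (Fin d) (ZMod p), a * b = b * a := by
      intro a b
      have : Subsingleton (Fin d) := by
        rw [Fin.subsingleton_iff_le_one]
        exact h1
      apply Units.ext
      ext i j
      have hij : i = j := Subsingleton.elim i j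
      subst hij
      rw [Units.val_mul, Units.val_mul, Matrix.mul_apply, Matrix.mul_apply]
      refine Finset.sum_congr rfl fun k _ => ?_
      have hki : k = i := Subsingleton.elim k i
      subst hki
      exact mul_comm _ _
    refine PS.of_bot ?_
    rw [eq_bot_iff]
    refine (derivedSeries_antitone _ (show 1 ≤ 5 by norm_num)).trans ?_
    rw [derivedSeries_one, commutator_def, Subgroup.commutator_le]
    intro a _ b _
    rw [Subgroup.mem_bot, commutatorElement_eq_one_iff_mul_comm]
    exact h2 a b
  have hd : d = 2 := by omega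
  subst hd
  by_cases hp5 : p = 2 ∨ p = 3
  · apply ps_of_card
    rw [card_GL_field]
    rcases hp5 with rfl | rfl
    · simp [Fin.prod_univ_two]
    · simp [Fin.prod_univ_two]
  · push Not at hp5
    have h := Cfsg.Agent.PLocal.SL2Perfect.commutator_eq_top (p := p) hp5.1 hp5.2
    have h' := ps_gl_of_perfect (ι := Fin 2) (F := ZMod p) h
    exact h'.mono (by norm_num)

/-- Automorphism groups of elementary abelian groups. -/
theorem ps_mulAut_pow {T : Type} [Group T] [Finite T] [IsSimpleGroup T] (hT : IsMulCommutative T) {m : ℕ} {N : Type*}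
    [Group N] (e : N ≃* (Fin m → T)) : PS 5 (MulAut N) := by
  letI : CommGroup T := { ‹Group T› with mul_comm := fun a b => hT.is_comm.comm a b }
  have hp : (Nat.card T).Prime := IsSimpleGroup.prime_card
  have : Fact (Nat.card T).Prime := ⟨hp⟩
  have hcomm : ∀ a b : N, a * b = b * a := by
    intro a b
    apply e.injective
    rw [map_mul, map_mul]
    funext i
    exact hT.is_comm.comm _ _
  letI : CommGroup N := { ‹Group N› with mul_comm := hcomm }
  have hpow : ∀ x : N, x ^ Nat.card T = 1 := by
    intro x
    apply e.injective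
    rw [map_pow, map_one]
    funext i
    exact pow_card_eq_one'
  have hcard : Nat.card N = Nat.card T ^ m := by
    rw [Nat.card_congr e.toEquiv, Nat.card_fun, Nat.card_fin]
  obtain ⟨f⟩ := Cfsg.Agent.Lib.ElemAbGL.mulAut_equiv_GL (V := N) (Nat.card T) m hpow hcard
  exact PS.of_equiv f.symm (ps_gl m (Nat.card T))

end Cfsg.Agent.H936
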